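import Cfsg.Agent.S0016
import Cfsg.Agent.Transfer.CentralTransfer

/-!
# A simple group of order 360, 6048 or 25920 has a subgroup `3 ^ 2` (helper69)
-/

set_option autoImplicit false
set_option linter.unusedSectionVars false

namespace Cfsg.Agent.N2.Ex.Mu.E69

open Subgroup MulAction

variable {G : Type} [Group G]

/-- the normaliser of the group generated by `s` -/
def NN (s : G) : Subgroup G where
  carrier := {g | MulAut.conj g s = s ∨ MulAut.conj g s = s⁻¹}
  one_mem' := .inl (by simp)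
  mul_mem' := by
    rintro a b (h | h) (k | k) <;> simp only [Set.mem_ofPred_eq, map_mul, MulAut.mul_apply, k, map_inv, h, inv_inv, true_or, or_true]
  inv_mem' := by
    rintro a (h | h)
    · exact .inl (by rw [map_inv, MulAut.inv_def, MulEquiv.symm_apply_eq, h])
    · exact .inr (by rw [map_inv, MulAut.inv_def, MulEquiv.symm_apply_eq, map_inv, h, inv_inv])

theorem mem_NN {s g : G} : g ∈ NN s ↔ MulAut.conj g s = s ∨ MulAut.conj g s = s⁻¹ := Iff.rfl

theorem ne_inv {s : G} (hs : orderOf s = 3) : s ≠ s⁻¹ := fun h => by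
  have : orderOf s ∣ 2 := orderOf_dvd_of_pow_eq_one (by rw [pow_two, ← eq_inv_iff_mul_eq_one]; exact h)
  rw [hs] at this
  exact absurd this (by decide)

theorem of_comm {s g : G} (h : g * s = s * g) : g ∈ NN s := .inl (by rw [MulAut.conj_apply, h, mul_inv_cancel_right])

variable [Finite G] (H : ∀ a b : G, orderOf a = 3 → orderOf b = 3 → a * b = b * a → b = a ∨ b = a⁻¹) {s : G} (hs : orderOf s = 3)
include H hs

theorem three {u : G} (hu : orderOf u = 3) (h : u ∈ NN s) : u = s ∨ u = s⁻¹ := by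
  rcases h with h | h
  · exact H s u hs hu (by rw [MulAut.conj_apply, mul_inv_eq_iff_eq_mul] at h; exact h.symm)
  · refine absurd ?_ (ne_inv hs)
    have h1 : MulAut.conj (u * (u * u)) s = s⁻¹ := by simp only [map_mul, MulAut.mul_apply, h, map_inv, inv_inv]
    rwa [← pow_three, ← hu, pow_orderOf_eq_one, map_one, MulAut.one_apply] at h1

theorem free {P : Subgroup G} (hP : IsPGroup 3 P) (hz : ∀ y ∈ P, y * s = s * y) (y : P) (hy : y ≠ 1) {ω : G ⧸ NN s} (h : y • ω = ω) :
    ω = ((1 : G) : G ⧸ NN s) := by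
  have := Fact.mk Nat.prime_three
  obtain ⟨g, rfl⟩ := QuotientGroup.mk_surjective ω
  have h1 : 3 ∣ orderOf y := (hP.dvd_orderOf hy)
  have h2 : orderOf ((y ^ (orderOf y / 3) : P) : G) = 3 := by
    rw [orderOf_coe, orderOf_pow_orderOf_div (orderOf_pos y).ne' h1]
  have h3 : y ^ (orderOf y / 3) ∈ stabilizer P (g : G ⧸ NN s) := pow_mem (mem_stabilizer_iff.2 h) _
  generalize y ^ (orderOf y / 3) = z at h2 h3
  have h4 : MulAut.conj g⁻¹ (z : G) ∈ NN s := by
    have h5 : ((z * g : G) : G ⧸ NN s) = g := h3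
    have h6 := QuotientGroup.eq.1 h5.symm
    rwa [MulAut.conj_apply, inv_inv, mul_assoc]
  have h5 := three H hs (by rw [MulEquiv.orderOf_eq, h2]) h4
  rw [QuotientGroup.eq, mul_one, mem_NN]
  rcases H s z hs h2 (hz z z.2).symm with k | k <;> rw [k] at h5
  · exact h5
  · rw [map_inv, inv_inj, inv_eq_iff_eq_inv] at h5
    exact h5.symm

omit hs in
theorem main [IsSimpleGroup G] (hc : ¬ IsMulCommutative G) (h : Nat.card G = 360 ∨ Nat.card G = 6048 ∨ Nat.card G = 25920) : False := by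
  classical
  have := Fact.mk Nat.prime_three
  have := Fact.mk Nat.prime_two
  obtain ⟨P⟩ : Nonempty (Sylow 3 G) := inferInstance
  have hP := P.card_eq_multiplicity
  have hP3 : Nat.card G = 360 ∧ Nat.card P = 9 ∨ Nat.card G = 6048 ∧ Nat.card P = 27 ∨ Nat.card G = 25920 ∧ Nat.card P = 81 := by
    have e : ∀ k m, ¬ 3 ∣ m → Nat.card G = 3 ^ k * m → Nat.card P = 3 ^ k := fun k m h1 h2 => by
      rw [hP, h2, Nat.factorization_mul (by positivity) (show m ≠ 0 from fun h0 => h1 (h0 ▸ dvd_zero 3)), Nat.prime_three.factorization_pow,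
        Finsupp.add_apply, Finsupp.single_eq_same, Nat.factorization_eq_zero_of_not_dvd h1, add_zero]
    exact h.imp (fun k => ⟨k, e 2 40 (by decide) k⟩) (Or.imp (fun k => ⟨k, e 3 224 (by decide) k⟩) fun k => ⟨k, e 4 320 (by decide) k⟩)
  have : Nontrivial P := Finite.one_lt_card_iff_nontrivial.1 (by omega)
  have := P.2.center_nontrivial
  obtain ⟨s₀, hs₀⟩ := exists_prime_orderOf_dvd_card' (G := center P) 3
    ((P.2.to_subgroup _).card_eq_or_dvd.resolve_left Finite.one_lt_card.ne')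
  obtain ⟨s, hsP, hs, hz⟩ : ∃ s ∈ (P : Subgroup G), orderOf s = 3 ∧ ∀ y ∈ (P : Subgroup G), y * s = s * y :=
    ⟨s₀.1.1, s₀.1.2, by rw [orderOf_coe, orderOf_coe, hs₀], fun y hy => congrArg Subtype.val (mem_center_iff.1 s₀.2 ⟨y, hy⟩)⟩
  have hcy : IsCyclic P := by
    have e : ∀ A : Subgroup P, Nat.card A = 3 → A = zpowers ⟨s, hsP⟩ := fun A hA => by
      obtain ⟨a, ha⟩ := exists_prime_orderOf_dvd_card' (G := A) 3 hA.symm.dvd
      refine (eq_of_le_of_card_ge (zpowers_le.2 ?_) (by rw [hA, Nat.card_zpowers, orderOf_mk, hs])).symm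
      rcases H a.1.1 s (by rw [orderOf_coe, orderOf_coe, ha]) hs (hz _ a.1.2) with k | k
      · exact (Subtype.ext k : (⟨s, hsP⟩ : P) = a.1) ▸ a.2
      · exact (Subtype.ext k : (⟨s, hsP⟩ : P) = a.1⁻¹) ▸ inv_mem a.2
    exact (S0016.result 3 P.2 fun A B hA hB => (e A hA).trans (e B hB).symm).resolve_right fun k => absurd k.1 (by decide)
  have fix : ∀ g ∈ NN s, g • ((1 : G) : G ⧸ NN s) = ((1 : G) : G ⧸ NN s) := fun g hg =>
    QuotientGroup.eq.2 (by simpa using hg)
  have hPN : (P : Subgroup G) ≤ NN s := fun y hy => of_comm (hz y hy)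
  have i1 := card_eq_card_quotient_mul_card_subgroup (NN s)
  obtain ⟨m, hm⟩ := card_dvd_of_le hPN
  have i2 : Nat.card P ∣ Nat.card (G ⧸ NN s) + (Nat.card P - 1) := by
    have := Fintype.ofFinite P
    have := Fintype.ofFinite (G ⧸ NN s)
    have := Fintype.ofFinite (Quotient (orbitRel P (G ⧸ NN s)))
    have k := sum_card_fixedBy_eq_card_orbits_mul_card_group P (G ⧸ NN s)
    have e : ∀ y ∈ Finset.univ.erase (1 : P), Fintype.card (fixedBy (G ⧸ NN s) y) = 1 := fun y hy => Fintype.card_eq_one_iff.2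
      ⟨⟨_, fix y (hPN y.2)⟩, fun ω => Subtype.ext (free H hs P.2 hz y (Finset.ne_of_mem_erase hy) ω.2)⟩
    rw [← Finset.add_sum_erase _ _ (Finset.mem_univ 1)] at k
    replace k := (congrArg _ (Finset.sum_congr rfl e)).symm.trans k
    rw [Finset.sum_const, Finset.card_erase_of_mem (Finset.mem_univ _), Finset.card_univ, smul_eq_mul, mul_one] at k
    simp only [← Nat.card_eq_fintype_card, fixedBy_one_eq_univ, Nat.card_univ] at k
    exact Dvd.intro_left _ k.symm
  have ker : ∀ g : G, (∀ ω : G ⧸ NN s, g • ω = ω) → g = 1 ∨ NN s = ⊤ := fun g hg => by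
    rcases (inferInstance : (NN s).normalCore.Normal).eq_bot_or_eq_top with k | k
    · refine .inl (mem_bot.1 (k ▸ ?_))
      rw [normalCore_eq_ker]
      exact Equiv.ext hg
    · exact .inr (top_le_iff.1 (k ▸ normalCore_le _))
  have nt : NN s ≠ ⊤ := fun k => by
    have : (zpowers s).Normal := ⟨fun x hx g => by
      obtain ⟨i, rfl⟩ := hx
      rw [← MulAut.conj_apply, map_zpow]
      rcases (k.ge (mem_top g) : g ∈ NN s) with k | k <;> rw [k]
      exacts [zpow_mem (mem_zpowers s) _, zpow_mem (inv_mem (mem_zpowers s)) _]⟩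
    have k2 := Nat.card_zpowers s
    rcases this.eq_bot_or_eq_top with k1 | k1 <;> rw [k1, hs] at k2
    · rw [card_bot] at k2; omega
    · rw [card_top] at k2; omega
  have i3 : Nat.card (G ⧸ NN s) ≠ 1 := fun k => nt (index_eq_one.1 k)
  have i4 : Nat.card (G ⧸ NN s) = Nat.card P + 1 ∧ Nat.card (NN s) ∣ 2 ^ 3 * 3 ^ 3 ∧ 2 * Nat.card P < Nat.card (NN s) := by
    rw [hm] at i1 ⊢
    generalize Nat.card (G ⧸ NN s) = n at i1 i2 i3
    rcases hP3 with ⟨k1, k2⟩ | ⟨k1, k2⟩ | ⟨k1, k2⟩ <;> rw [k1] at i1 <;> rw [k2] at i1 i2 ⊢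
    · have e : n * m = 40 := by linarith
      have := Nat.le_of_dvd (by norm_num) (Dvd.intro _ e)
      interval_cases n <;> first | omega | (obtain rfl : m = 4 := by omega); decide
    · have e : n * m = 224 := by linarith
      obtain ⟨c, hc⟩ := i2
      obtain rfl : n = 27 * (c - 1) + 1 := by omega
      have := Nat.le_of_dvd (by norm_num) (Dvd.intro _ e)
      have : c - 1 ≤ 8 := by omega
      generalize c - 1 = d at *
      interval_cases d <;> first | omega | (obtain rfl : m = 8 := by omega); decide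
    · have e : n * m = 320 := by linarith
      obtain ⟨c, hc⟩ := i2
      obtain rfl : n = 81 * (c - 1) + 1 := by omega
      have := Nat.le_of_dvd (by norm_num) (Dvd.intro _ e)
      have : c - 1 ≤ 3 := by omega
      generalize c - 1 = d at *
      interval_cases d <;> omega
  let C := centralizer ({s} : Set G)
  have hC : ∀ g, g ∈ C ↔ MulAut.conj g s = s := fun g => by
    rw [mem_centralizer_singleton_iff, MulAut.conj_apply, mul_inv_eq_iff_eq_mul]
  have hCN : C ≤ NN s := fun g hg => .inl ((hC g).1 hg)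
  have hPC : (P : Subgroup G) ≤ C := fun y hy => mem_centralizer_singleton_iff.2 (hz y hy)
  have i5 : Nat.card (NN s) ≤ 2 * Nat.card C := by
    have k : C.relIndex (NN s) ∣ 2 := by
      rw [relIndex_dvd_two_iff]
      by_cases k : ∃ a, MulAut.conj a s = s⁻¹
      · obtain ⟨a, k⟩ := k
        refine ⟨a, .inr k, fun b hb => hb.symm.imp (fun hb => (hC _).2 ?_) (hC b).2⟩
        rw [map_mul, MulAut.mul_apply, k, map_inv, hb, inv_inv]
      · exact ⟨1, one_mem _, fun b hb => .inr ((hC b).2 (hb.resolve_right fun e => k ⟨b, e⟩))⟩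
    rw [← (C.subgroupOf (NN s)).index_mul_card, Nat.card_congr (subgroupOfEquivOfLe hCN).toEquiv]
    exact Nat.mul_le_mul_right _ (Nat.le_of_dvd two_pos k)
  let Q := (P : Subgroup G).subgroupOf C
  have eQ := subgroupOfEquivOfLe hPC
  have hQ : IsCyclic Q := isCyclic_of_surjective eQ.symm eQ.symm.surjective
  let _ : CommGroup Q := IsCyclic.commGroup
  let V : C →* Q := MonoidHom.transfer (MonoidHom.id Q)
  have hV : ∀ z : C, orderOf z = 3 → z ∉ V.ker := fun z h1 h2 => by
    have h3 : (z : G) = s ∨ (z : G) = s⁻¹ := three H hs (by rw [orderOf_coe, h1]) (hCN z.2)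
    have h4 : z ∈ Q := by
      rcases h3 with k | k <;> rw [mem_subgroupOf, k]
      exacts [hsP, inv_mem hsP]
    have h5 := Transfer.CentralTransfer.transfer_of_mem_center' (MonoidHom.id Q) ⟨z, h4⟩ (mem_center_iff.2 fun g => Subtype.ext (by
      have := mem_centralizer_singleton_iff.1 g.2
      rcases h3 with k | k <;> rw [coe_mul, coe_mul, k]
      exacts [this, (Commute.inv_right this).eq]))
    have h6 : orderOf (⟨z, h4⟩ : Q) ∣ Q.index := orderOf_dvd_of_pow_eq_one (h5.symm.trans h2)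
    rw [orderOf_mk, h1] at h6
    exact P.not_dvd_index (h6.trans (relIndex_dvd_index_of_le hPC))
  have hK : IsPGroup 2 V.ker := by
    have k1 : (Nat.card V.ker).Coprime (3 ^ 3) := (Nat.Coprime.pow_left 3 ((Nat.Prime.coprime_iff_not_dvd Nat.prime_three).2 fun k => by
      obtain ⟨z, hz⟩ := exists_prime_orderOf_dvd_card' 3 k
      exact hV z (by rw [orderOf_coe, hz]) z.2)).symm
    obtain ⟨i, -, hi⟩ := (Nat.dvd_prime_pow Nat.prime_two).1
      (k1.dvd_of_dvd_mul_right (((card_subgroup_dvd_card _).trans (card_dvd_of_le hCN)).trans i4.2.1))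
    exact .of_card hi
  obtain ⟨ω, h1, h2⟩ := hK.exists_fixed_point_of_prime_dvd_card_of_fixed_point (G ⧸ NN s)
    (by rw [i4.1]; rcases hP3 with k | k | k <;> rw [k.2] <;> decide) (a := ((1 : G) : G ⧸ NN s)) fun k => fix _ (hCN k.1.2)
  have bij : Function.Bijective fun o : Option P => o.elim ((1 : G) : G ⧸ NN s) (· • ω) := by
    refine (Nat.bijective_iff_injective_and_card _).2 ⟨?_, by rw [Finite.card_option, i4.1]⟩
    have e : ∀ y : P, ((1 : G) : G ⧸ NN s) ≠ y • ω := fun y k => h2 (by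
      rw [← inv_smul_eq_iff] at k
      exact (fix _ (hPN y⁻¹.2)).symm.trans k)
    rintro (_ | a) (_ | b) k
    · rfl
    · exact absurd k (e b)
    · exact absurd k.symm (e a)
    · by_contra k1
      refine h2 (free H hs P.2 hz (b⁻¹ * a) (fun k2 => k1 (by rw [inv_mul_eq_one.1 k2])) ?_).symm
      rw [mul_smul, inv_smul_eq_iff]
      exact k
  have inj : Function.Injective V := (MonoidHom.ker_eq_bot_iff V).1 ((eq_bot_iff_forall _).2 fun k hk => Subtype.ext
    ((ker k fun ω' => by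
      obtain ⟨_ | y, rfl⟩ := bij.2 ω'
      · exact fix _ (hCN k.2)
      · have k1 : ((y : G)⁻¹ * k * (y : G)⁻¹⁻¹) • ω = ω :=
          h1 ⟨_, (inferInstance : V.ker.Normal).conj_mem k hk (⟨y, hPC y.2⟩ : C)⁻¹⟩
        rw [inv_inv, mul_smul, mul_smul, inv_smul_eq_iff] at k1
        exact k1).resolve_right nt))
  have i6 := Nat.card_le_card_of_injective V inj
  rw [Nat.card_congr eQ.toEquiv] at i6
  omega

omit H hs in
/-- **e9** -/
theorem e9_of (h1 : IsSimpleGroup G) (hc : ¬ IsMulCommutative G) (h : Nat.card G = 360 ∨ Nat.card G = 6048 ∨ Nat.card G = 25920) :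
    ∃ a b : G, orderOf a = 3 ∧ orderOf b = 3 ∧ a * b = b * a ∧ b ≠ a ∧ b ≠ a⁻¹ := by
  by_contra k
  refine main (fun a b ha hb e => ?_) hc h
  by_contra k1
  exact k ⟨a, b, ha, hb, e, fun x => k1 (.inl x), fun x => k1 (.inr x)⟩

end Cfsg.Agent.N2.Ex.Mu.E69
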